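import Cfsg.Agent.H669.TwoDegSol
import Cfsg.Agent.CharactersDeep.ExtUnique
import Cfsg.Agent.H686.CharKit

/-!
# S4844, team PSQ, PS-12/PS-13: characters over an invariant linear character

* `exists_ext_of_coprime`: the determinant trick;
* `deg_of_over`, `deg_of_ext`: degrees over `lam` from the stabilizer.
-/

set_option autoImplicit false
set_option linter.unusedSectionVars false

namespace Cfsg.Agent.H848.PSq

open Cfsg Cfsg.Agent.Characters Cfsg.Agent.Characters.Core

universe u v w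

/-- The determinant trick: an invariant linear character of order prime to the degree of a character
over it extends. -/
theorem exists_ext_of_coprime {I : Type u} [Group I] [Finite I] {V : Type v} [Group V] [Finite V]
    (j : V →* I) (lam : V →* ℂˣ) {ψ : I → ℂ} (hψ : IsIrrCharacter I ψ)
    (h : ∀ v, ψ (j v) = ψ 1 * lam v) {r : ℕ} (hr : ∀ v, lam v ^ r = 1)
    (hc : Nat.Coprime (charDegree ψ) r) : ∃ μ : I →* ℂˣ, ∀ v, μ (j v) = lam v := by
  have hd := H686.CharKit.charDegree_cast (isIrr_isCharacter hψ)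
  obtain ⟨n, ρ, hρ, rfl⟩ := hψ
  have h1 : ρ.character 1 = (n : ℂ) := by
    rw [Representation.char_one, Module.finrank_fin_fun]
  have hn : charDegree ρ.character = n := by
    have h2 : (charDegree ρ.character : ℂ) = (n : ℂ) := hd.trans h1
    exact_mod_cast h2
  rw [hn] at hc
  have hn0 : (n : ℂ) ≠ 0 := by
    rw [← h1]
    exact isIrr_apply_one_ne_zero ⟨n, ρ, hρ, rfl⟩
  let D : ((Fin n → ℂ) →ₗ[ℂ] (Fin n → ℂ)) →* ℂ := LinearMap.det
  let δ : I →* ℂˣ := MonoidHom.toHomUnits (D.comp ρ)
  have hδ : ∀ v, δ (j v) = lam v ^ n := by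
    intro v
    have h2 : ‖ρ.character (j v)‖ = (Module.finrank ℂ (Fin n → ℂ) : ℝ) := by
      rw [h v, h1, norm_mul, Linear.norm_hom_apply, mul_one, Module.finrank_fin_fun]
      simp
    obtain ⟨w, hw⟩ := (Values.norm_character_eq_iff ρ (j v)).1 h2
    have h3 : ρ.character (j v) = w * n := by
      rw [Representation.character, hw, map_smul]
      simp
    have h4 : w = lam v := by
      rw [h v, h1, mul_comm] at h3
      exact (mul_right_cancel₀ hn0 h3).symm
    apply Units.ext
    have h5 : ((δ (j v) : ℂˣ) : ℂ) = LinearMap.det (ρ (j v)) := rfl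
    rw [h5, hw, LinearMap.det_smul, LinearMap.det_id, Module.finrank_fin_fun, h4, mul_one]
    simp
  refine ⟨δ ^ (Nat.gcdA n r), fun v => ?_⟩
  have h6 : (δ ^ (Nat.gcdA n r)) (j v) = (δ (j v)) ^ (Nat.gcdA n r) := rfl
  rw [h6, hδ]
  have h7 := Nat.gcd_eq_gcd_ab n r
  rw [hc.gcd_eq_one] at h7
  rw [← zpow_natCast, ← zpow_mul]
  have h8 : (n : ℤ) * Nat.gcdA n r = 1 - r * Nat.gcdB n r := by push_cast at h7; linarith
  rw [h8, zpow_sub, zpow_one, zpow_mul, zpow_natCast, hr v, one_zpow, inv_one, mul_one]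

section clifford

variable {K : Type u} [Group K] [Finite K] {Q : Type w} [Group Q] (f : K →* Q) (hf : Function.Surjective f)
  (V : Subgroup K) [hVn : V.Normal] (hV : V = f.ker) (lam : V →* ℂˣ) (T : Subgroup Q)
  (hT : ∀ g : K, f g ∈ T ↔ ∀ n : V, lam ⟨g * n * g⁻¹, hVn.conj_mem (n : K) n.2 g⟩ = lam n)

include hV in
theorem le_comap : V ≤ T.comap f := by
  intro v hv
  rw [hV] at hv
  rw [Subgroup.mem_comap, MonoidHom.mem_ker.1 hv]
  exact T.one_mem

include hT in
/-- Degrees over `lam` from the stabilizer. -/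
theorem deg_of_over (hf : Function.Surjective f) (hV : V = f.ker) {ψ : T.comap f → ℂ} (hψ : IsIrrCharacter (T.comap f) ψ)
    (h : ∀ v : V, ψ ⟨v, le_comap f V hV T v.2⟩ = ψ 1 * lam v) :
    ∃ X : K → ℂ, IsIrrCharacter K X ∧ charDegree X = T.index * charDegree ψ := by
  obtain ⟨X, h1, h2⟩ := H669.TwoDeg.exists_clifford_up V lam (T.comap f) (fun g => hT g) (le_comap f V hV T) hψ h
  refine ⟨X, h1, ?_⟩
  rw [h2, T.index_comap_of_surjective hf]

include hT in
/-- If `lam` extends to its stabilizer, the degrees of `T` times the index are degrees. -/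
theorem deg_of_ext (hf : Function.Surjective f) (hV : V = f.ker) (μ : T.comap f →* ℂˣ)
    (hμ : ∀ v : V, μ ⟨v, le_comap f V hV T v.2⟩ = lam v) {η : T → ℂ} (hη : IsIrrCharacter T η) :
    ∃ X : K → ℂ, IsIrrCharacter K X ∧ charDegree X = T.index * charDegree η := by
  let F : T.comap f →* T := f.subgroupComap T
  have hF : Function.Surjective F := by
    intro t
    obtain ⟨g, hg⟩ := hf t
    exact ⟨⟨g, by rw [Subgroup.mem_comap, hg]; exact t.2⟩, Subtype.ext hg⟩
  have h1 : IsIrrCharacter (T.comap f) (η ∘ F) := isIrr_comp F hF hη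
  have h2 : IsIrrCharacter (T.comap f) (fun g => (η ∘ F) g * μ g) :=
    CharactersDeep.ExtUnique.isIrr_mul_hom h1 μ
  have h4 : charDegree (fun g => (η ∘ F) g * μ g) = charDegree η := by
    unfold charDegree
    simp only [Function.comp_apply, map_one, Units.val_one, mul_one]
  have h3 : ∀ v : V, (fun g => (η ∘ F) g * (μ g : ℂ)) ⟨v, le_comap f V hV T v.2⟩
      = (fun g => (η ∘ F) g * (μ g : ℂ)) 1 * lam v := by
    intro v
    have h5 : F ⟨v, le_comap f V hV T v.2⟩ = 1 := by
      apply Subtype.ext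
      have h6 : (v : K) ∈ f.ker := hV ▸ v.2
      exact h6
    simp only [Function.comp_apply, h5, map_one, Units.val_one, mul_one, hμ]
  obtain ⟨X, hX, hX2⟩ := deg_of_over f V lam T hT hf hV h2 h3
  exact ⟨X, hX, by rw [hX2, h4]⟩

end clifford

end Cfsg.Agent.H848.PSq
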