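import Cfsg.Agent.H848.PSq.Asm

/-!
# S4844, team PSQ, PS-13: assembly from facts on the alternating group of degree 7
-/

set_option autoImplicit false
set_option linter.unusedSectionVars false

namespace Cfsg.Agent.H848.PSq

open Cfsg Cfsg.Agent.Characters Cfsg.Agent.Characters.Core Cfsg.Agent.H33

universe u v w

/-- The facts on the alternating group of degree 7 which are used. -/
structure Fa : Prop where
  card : Nat.card (alternatingGroup (Fin 7)) = 2520
  sub : ∀ (T : Subgroup (alternatingGroup (Fin 7))) (x : alternatingGroup (Fin 7)), x ∈ T →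
    (orderOf x = 5 ∨ orderOf x = 7) → T ≠ ⊤ → ∃ η : T → ℂ, IsIrrCharacter T η ∧ 4 ∣ T.index * charDegree η
  f3 : Nat.card {t : alternatingGroup (Fin 7) // orderOf t = 2} = 105
  f4 : Nat.card {t : alternatingGroup (Fin 7) // orderOf t = 4} = 630
  f5 : ∀ t : alternatingGroup (Fin 7), orderOf t = 2 → ∃ g : alternatingGroup (Fin 7),
    orderOf (t * (g * t * g⁻¹)) = 5
  f6 : ∀ u : alternatingGroup (Fin 7), orderOf u = 4 → ∃ x : alternatingGroup (Fin 7),
    orderOf x = 5 ∧ u * x * u⁻¹ = x ^ 2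
  f7 : ∀ u : alternatingGroup (Fin 7), orderOf u = 4 → ∀ c : alternatingGroup (Fin 7), c * u = u * c →
    c ∈ Subgroup.zpowers u

theorem exists_conj_mem {G : Type v} [Group G] [Finite G] (T : Subgroup G) {p : ℕ} [hp : Fact p.Prime]
    (hT : ¬ p ∣ T.index) (u : G) (hu : ∃ k, orderOf u = p ^ k) : ∃ g : G, g⁻¹ * u * g ∈ T := by
  obtain ⟨k, hk⟩ := hu
  have hpg : IsPGroup p (Subgroup.zpowers u) := IsPGroup.of_card (n := k) (by rw [Nat.card_zpowers, hk])
  obtain ⟨q, hq⟩ := hpg.nonempty_fixed_point_of_prime_not_dvd_card (G ⧸ T) hT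
  obtain ⟨g, rfl⟩ := QuotientGroup.mk_surjective q
  refine ⟨g, ?_⟩
  have h1 := hq ⟨u, Subgroup.mem_zpowers u⟩
  have h2 : (QuotientGroup.mk (u * g) : G ⧸ T) = QuotientGroup.mk g := h1
  have h3 := QuotientGroup.eq.1 h2.symm
  rwa [← mul_assoc] at h3

theorem local_two (F : Fa) {K : Type u} [Group K] [Finite K] (hIM : ¬ IM 4 K) {V : Subgroup K}
    [hVn : V.Normal] (f : K →* alternatingGroup (Fin 7)) (hf : Function.Surjective f) (hV : V = f.ker)
    (lam : V →* ℂˣ) (hsq : ∀ v, lam v ^ 2 = 1) (hne : lam ≠ 1) (T : Subgroup (alternatingGroup (Fin 7)))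
    (hT : ∀ g : K, f g ∈ T ↔ ∀ n : V, lam ⟨g * n * g⁻¹, hVn.conj_mem (n : K) n.2 g⟩ = lam n)
    (hTt : T ≠ ⊤) : 4 ∣ Nat.card T ∧ ∀ x ∈ T, ¬ (orderOf x = 5 ∨ orderOf x = 7) := by
  classical
  have : Fact (Nat.Prime 2) := ⟨Nat.prime_two⟩
  obtain ⟨j, hj⟩ : ∃ j : V →* T.comap f, j = Subgroup.inclusion (le_comap f V hV T) := ⟨_, rfl⟩
  have hjv : ∀ v : V, j v = ⟨v, le_comap f V hV T v.2⟩ := by rw [hj]; intro v; rfl
  obtain ⟨fI, hfI⟩ : ∃ fI : T.comap f →* T, fI = f.subgroupComap T := ⟨_, rfl⟩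
  have hfv : ∀ x, ((fI x : T) : alternatingGroup (Fin 7)) = f x := by rw [hfI]; intro x; rfl
  have S : Sq j fI lam := by
    refine ⟨?_, ?_, ?_, ?_, hsq, hne⟩
    · rw [hj]; exact Subgroup.inclusion_injective _
    · intro t
      obtain ⟨g, hg⟩ := hf t
      exact ⟨⟨g, by rw [Subgroup.mem_comap, hg]; exact t.2⟩, Subtype.ext (by rw [hfv]; exact hg)⟩
    · ext x
      rw [MonoidHom.mem_range, MonoidHom.mem_ker]
      constructor
      · rintro ⟨v, rfl⟩
        apply Subtype.ext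
        rw [hfv, hjv]
        have h1 : (v : K) ∈ f.ker := hV ▸ v.2
        exact h1
      · intro h1
        have h2 : (x : K) ∈ V := by
          rw [hV, MonoidHom.mem_ker, ← hfv, h1]
          rfl
        exact ⟨⟨x, h2⟩, hjv _⟩
    · intro g v v' h1
      have h2 : v' = ⟨g * v * (g : K)⁻¹, hVn.conj_mem (v : K) v.2 g⟩ := by
        apply Subtype.ext
        show (v' : K) = g * v * (g : K)⁻¹
        rw [hjv, hjv] at h1
        have h3 := congrArg Subtype.val h1
        exact h3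
      rw [h2]
      exact (hT g).1 g.2 v
  have hd0 : ∀ ψ : T.comap f → ℂ, IsIrrCharacter (T.comap f) ψ → (∀ v, ψ (j v) = ψ 1 * lam v) →
      ¬ 4 ∣ T.index * charDegree ψ := by
    intro ψ hψ hv h4
    obtain ⟨X, hX, hX2⟩ := deg_of_over f V lam T hT hf hV hψ (fun v => by rw [← hjv]; exact hv v)
    exact hIM (IM.intro hX (by rw [hX2]; exact h4))
  have hci : Nat.card T * T.index = 2520 := by rw [Subgroup.card_mul_index, F.card]
  obtain ⟨ψ₀, hψ₀, hov₀⟩ := S.exists_over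
  have h0 := hd0 ψ₀ hψ₀ hov₀
  have h4i : ¬ 4 ∣ T.index := fun h => h0 (h.mul_right _)
  have h84 : (2 ∣ T.index ∧ ∃ m, Odd m ∧ Nat.card T = 4 * m) ∨ (¬ 2 ∣ T.index ∧ ∃ m, Odd m ∧ Nat.card T = 8 * m) := by
    by_cases h2 : 2 ∣ T.index
    · left
      refine ⟨h2, ?_⟩
      obtain ⟨r, hr⟩ := h2
      have hrodd : ¬ 2 ∣ r := fun ⟨s, hs⟩ => h4i ⟨s, by rw [hr, hs]; ring⟩
      rw [hr] at hci
      have h1 : Nat.card T * r = 4 * 315 := by
        have h7 : Nat.card T * (2 * r) = 2 * (Nat.card T * r) := by ring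
        rw [h7] at hci
        omega
      have h3 : 4 ∣ Nat.card T := by
        have h5 : (Nat.Coprime 4 r) := by
          have h6 : Nat.Coprime 2 r := (Nat.Prime.coprime_iff_not_dvd Nat.prime_two).2 hrodd
          exact Nat.Coprime.pow_left 2 h6
        exact h5.dvd_of_dvd_mul_right ⟨315, h1⟩
      obtain ⟨m, hm⟩ := h3
      refine ⟨m, ?_, hm⟩
      rw [hm] at h1
      have h5 : m * r = 315 := by nlinarith
      have h6 : Odd (m * r) := by rw [h5]; decide
      exact (Nat.odd_mul.1 h6).1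
    · right
      refine ⟨h2, ?_⟩
      have h3 : 8 ∣ Nat.card T := by
        have h5 : (Nat.Coprime 8 T.index) := by
          have h6 : Nat.Coprime 2 T.index := (Nat.Prime.coprime_iff_not_dvd Nat.prime_two).2 h2
          exact Nat.Coprime.pow_left 3 h6
        exact h5.dvd_of_dvd_mul_right ⟨315, hci⟩
      obtain ⟨m, hm⟩ := h3
      refine ⟨m, ?_, hm⟩
      rw [hm] at hci
      have h5 : m * T.index = 315 := by nlinarith
      have h6 : Odd (m * T.index) := by rw [h5]; decide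
      exact (Nat.odd_mul.1 h6).1
  refine ⟨?_, ?_⟩
  · rcases h84 with ⟨-, m, -, hm⟩ | ⟨-, m, -, hm⟩
    · exact ⟨m, hm⟩
    · exact ⟨2 * m, by rw [hm]; ring⟩
  intro x hx hx57
  by_cases hO : ∃ ψ : T.comap f → ℂ, IsIrrCharacter (T.comap f) ψ ∧ (∀ v, ψ (j v) = ψ 1 * lam v) ∧
      ¬ 2 ∣ charDegree ψ
  · -- `lam` extends
    obtain ⟨ψ, hψ, hov, hodd⟩ := hO
    obtain ⟨μ, hμ⟩ := exists_ext_of_coprime j lam hψ hov hsq
      ((Nat.Prime.coprime_iff_not_dvd Nat.prime_two).2 hodd).symm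
    have hgal : ∀ η : T → ℂ, IsIrrCharacter T η → ¬ 4 ∣ T.index * charDegree η := by
      intro η hη h4
      obtain ⟨X, hX, hX2⟩ := deg_of_ext f V lam T hT hf hV μ (fun v => by rw [← hjv]; exact hμ v) hη
      exact hIM (IM.intro hX (by rw [hX2]; exact h4))
    obtain ⟨η, hη, h4⟩ := F.sub T x hx hx57 hTt
    exact hgal η hη h4
  · -- all degrees over `lam` are even
    push Not at hO
    rcases h84 with ⟨h2, m, hmodd, hm⟩ | ⟨h2, m, hmodd, hm⟩
    · exact h0 (mul_dvd_mul h2 (hO ψ₀ hψ₀ hov₀))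
    · have hex : ∃ u ∈ T, orderOf u = 4 := by
        have h3 : Nonempty {t : alternatingGroup (Fin 7) // orderOf t = 4} := by
          by_contra hcon
          rw [not_nonempty_iff] at hcon
          have h4 := F.f4
          rw [Nat.card_of_isEmpty] at h4
          omega
        obtain ⟨u, hu⟩ := h3
        obtain ⟨g, hg⟩ := exists_conj_mem T h2 u ⟨2, by rw [hu]; norm_num⟩
        refine ⟨_, hg, ?_⟩
        have h4 : orderOf (g⁻¹ * u * g) = orderOf u := by
          have h5 := MulEquiv.orderOf_eq (MulAut.conj g⁻¹) u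
          rwa [MulAut.conj_apply, inv_inv] at h5
        rw [h4, hu]
      obtain ⟨u, huT, hu4⟩ := hex
      obtain ⟨d, hd⟩ := S.card_eq (u := ⟨u, huT⟩) (fun ψ hψ hov => ⟨hO ψ hψ hov, fun h4 =>
          hd0 ψ hψ hov (h4.mul_left _)⟩) (by
          intro c hc
          have h3 := F.f7 u hu4 c (congrArg Subtype.val hc)
          obtain ⟨k, hk⟩ := Subgroup.mem_zpowers_iff.1 h3
          exact Subgroup.mem_zpowers_iff.2 ⟨k, Subtype.ext (by rw [Subgroup.coe_zpow]; exact hk)⟩)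
        (by rw [Subgroup.orderOf_mk]; exact hu4) hm hmodd
      have hxc : orderOf x ∣ Nat.card T := by
        rw [← Subgroup.orderOf_mk x hx]
        exact orderOf_dvd_natCard _
      have hle : Nat.card T ∣ 2520 := ⟨T.index, hci.symm⟩
      rw [hd] at hxc hle
      rcases hx57 with h5 | h5
      · rw [h5] at hxc
        have h6 : 5 ∣ d := by
          have h7 : 5 ∣ d ^ 2 := (Nat.Coprime.dvd_of_dvd_mul_left (by decide) hxc)
          exact Nat.Prime.dvd_of_dvd_pow (by norm_num) h7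
        obtain ⟨r, rfl⟩ := h6
        have h7 : 25 ∣ 2520 := Dvd.dvd.trans ⟨2 * r ^ 2, by ring⟩ hle
        exact absurd h7 (by decide)
      · rw [h5] at hxc
        have h6 : 7 ∣ d := by
          have h7 : 7 ∣ d ^ 2 := (Nat.Coprime.dvd_of_dvd_mul_left (by decide) hxc)
          exact Nat.Prime.dvd_of_dvd_pow (by norm_num) h7
        obtain ⟨r, rfl⟩ := h6
        have h7 : 49 ∣ 2520 := Dvd.dvd.trans ⟨2 * r ^ 2, by ring⟩ hle
        exact absurd h7 (by decide)

end Cfsg.Agent.H848.PSq
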